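import Mathlib
import Cfsg.Agent.Helper2.Isolated
import Cfsg.Agent.Helper6.BSFinal

set_option autoImplicit false

namespace Cfsg.Agent.Helper8

section

variable {G : Type*} [Group G]

/-- conjugation by a normalizing element as an automorphism of the subgroup -/
def ccNormEquiv (S : Subgroup G) (n : G) (hn : n ∈ Subgroup.normalizer (S : Set G)) :
    ↥S ≃* ↥S where
  toFun s := ⟨n * (s : G) * n⁻¹, (Subgroup.mem_normalizer_iff.1 hn (s : G)).1 s.2⟩
  invFun s := ⟨n⁻¹ * (s : G) * n, by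
    apply (Subgroup.mem_normalizer_iff.1 hn (n⁻¹ * (s : G) * n)).2
    have h : n * (n⁻¹ * (s : G) * n) * n⁻¹ = s := by group
    rw [h]; exact s.2⟩
  left_inv s := Subtype.ext (by
    show n⁻¹ * (n * (s : G) * n⁻¹) * n = s
    group)
  right_inv s := Subtype.ext (by
    show n * (n⁻¹ * (s : G) * n) * n⁻¹ = s
    group)
  map_mul' s t := Subtype.ext (by
    show n * ((s : G) * (t : G)) * n⁻¹ = (n * (s : G) * n⁻¹) * (n * (t : G) * n⁻¹)
    group)

theorem ccNormEquiv_apply (S : Subgroup G) (n : G) (hn : n ∈ Subgroup.normalizer (S : Set G))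
    (s : S) : ((ccNormEquiv S n hn s : S) : G) = n * (s : G) * n⁻¹ := rfl

variable [Finite G]

/-- the involution of a cyclic characteristic subgroup of a Sylow 2-subgroup is fixed by the
normalizer of the Sylow subgroup -/
theorem cc_norm_fix (S : Sylow 2 G) (C : Subgroup ↥(S : Subgroup G)) (hCc : IsCyclic ↥C)
    (hCh : C.Characteristic) (c : ↥(S : Subgroup G)) (hc : c ∈ C) (hc2 : orderOf c = 2) (n : G)
    (hn : n ∈ Subgroup.normalizer ((S : Subgroup G) : Set G)) :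
    n * (c : G) * n⁻¹ = (c : G) := by
  have h1 : ccNormEquiv (S : Subgroup G) n hn c ∈ C := by
    rw [← Subgroup.characteristic_iff_map_eq.1 hCh (ccNormEquiv (S : Subgroup G) n hn)]
    exact Subgroup.mem_map_of_mem _ hc
  have h2 : orderOf (⟨ccNormEquiv _ n hn c, h1⟩ : C) = 2 := by
    rw [Subgroup.orderOf_mk, MulEquiv.orderOf_eq]; exact hc2
  have h3 : orderOf (⟨c, hc⟩ : C) = 2 := by rw [Subgroup.orderOf_mk]; exact hc2
  have h4 := Cfsg.Agent.Helper6.BS.eq_of_orderOf_two_of_isCyclic _ _ h2 h3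
  have h5 : ccNormEquiv (S : Subgroup G) n hn c = c := congrArg Subtype.val h4
  exact congrArg Subtype.val h5

/-- moving a conjugate Sylow subgroup inside the centralizer so that it contains `c` -/
theorem cc_lemmaA (S : Sylow 2 G) (c d g : G) (hcS : c ∈ (S : Subgroup G))
    (hcZ : ∀ s ∈ (S : Subgroup G), s * c = c * s)
    (hd : g * c * g⁻¹ = d) (hcd : c * d = d * c) :
    ∃ g' : G, g' * c * g'⁻¹ = d ∧ g'⁻¹ * c * g' ∈ (S : Subgroup G) := by
  haveI : Fact (Nat.Prime 2) := ⟨Nat.prime_two⟩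
  obtain ⟨K, hK⟩ : ∃ K : Subgroup G, K = Subgroup.centralizer ({d} : Set G) := ⟨_, rfl⟩
  have hmemK : ∀ y : G, y ∈ K ↔ d * y = y * d := by
    intro y
    rw [hK, Subgroup.mem_centralizer_iff]
    constructor
    · intro h; exact h d rfl
    · intro h z hz; rw [Set.mem_singleton_iff.1 hz]; exact h
  have hTK : ((g • S : Sylow 2 G) : Subgroup G) ≤ K := by
    intro t ht
    have ht' : g⁻¹ * t * g ∈ (S : Subgroup G) :=
      (Cfsg.Agent.Helper2.mem_sylow_smul_iff g S t).1 ht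
    rw [hmemK]
    have h1 := hcZ _ ht'
    rw [← hd]
    calc g * c * g⁻¹ * t = g * (c * (g⁻¹ * t * g)) * g⁻¹ := by group
      _ = g * ((g⁻¹ * t * g) * c) * g⁻¹ := by rw [h1]
      _ = t * (g * c * g⁻¹) := by group
  have hP₀ : IsPGroup 2 (((S : Subgroup G) ⊓ K).subgroupOf K) :=
    (S.isPGroup'.to_le inf_le_left).comap_subtype
  obtain ⟨Q, hQ⟩ := hP₀.exists_le_sylow
  obtain ⟨k, hk⟩ := MulAction.exists_smul_eq ↥K ((g • S).subtype hTK) Q
  have hcK : c ∈ K := (hmemK c).2 hcd.symm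
  have h1 : (⟨c, hcK⟩ : K) ∈ Q := hQ (Subgroup.mem_subgroupOf.2 ⟨hcS, hcK⟩)
  rw [← hk] at h1
  have h1' := (Cfsg.Agent.Helper2.mem_sylow_smul_iff k ((g • S).subtype hTK) _).1 h1
  have h2' : (k : G)⁻¹ * c * k ∈ ((g • S : Sylow 2 G) : Subgroup G) := by
    have h3 : k⁻¹ * (⟨c, hcK⟩ : K) * k ∈ ((g • S : Sylow 2 G) : Subgroup G).subgroupOf K := h1'
    exact Subgroup.mem_subgroupOf.1 h3
  have h2 : g⁻¹ * ((k : G)⁻¹ * c * k) * g ∈ (S : Subgroup G) :=
    (Cfsg.Agent.Helper2.mem_sylow_smul_iff g S _).1 h2'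
  refine ⟨k * g, ?_, ?_⟩
  · have hkd : d * (k : G) = (k : G) * d := (hmemK k).1 k.2
    calc (k : G) * g * c * ((k : G) * g)⁻¹ = k * (g * c * g⁻¹) * (k : G)⁻¹ := by group
      _ = k * d * (k : G)⁻¹ := by rw [hd]
      _ = d := by rw [← hkd]; group
  · have h4 : ((k : G) * g)⁻¹ * c * ((k : G) * g) = g⁻¹ * ((k : G)⁻¹ * c * k) * g := by group
    rw [h4]; exact h2

/-- Burnside fusion: a conjugate of `c` central in the Sylow subgroup `v • S` is `v c v⁻¹` -/
theorem cc_lemmaB (S : Sylow 2 G) (c : G)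
    (hfix : ∀ n ∈ Subgroup.normalizer ((S : Subgroup G) : Set G), n * c * n⁻¹ = c)
    (hcZ : ∀ s ∈ (S : Subgroup G), s * c = c * s) (v : G) (y h : G) (hy : h * c * h⁻¹ = y)
    (hyZ : ∀ t ∈ ((v • S : Sylow 2 G) : Subgroup G), t * y = y * t) : y = v * c * v⁻¹ := by
  haveI : Fact (Nat.Prime 2) := ⟨Nat.prime_two⟩
  have hx : v * c * v⁻¹ ∈ Subgroup.centralizer (((v • S : Sylow 2 G) : Subgroup G) : Set G) := by
    rw [Subgroup.mem_centralizer_iff]
    intro t ht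
    have ht' : v⁻¹ * t * v ∈ (S : Subgroup G) :=
      (Cfsg.Agent.Helper2.mem_sylow_smul_iff v S t).1 ht
    have h1 := hcZ _ ht'
    calc t * (v * c * v⁻¹) = v * ((v⁻¹ * t * v) * c) * v⁻¹ := by group
      _ = v * (c * (v⁻¹ * t * v)) * v⁻¹ := by rw [h1]
      _ = v * c * v⁻¹ * t := by group
  have hy' : (v * h⁻¹)⁻¹ * (v * c * v⁻¹) * (v * h⁻¹) = y := by rw [← hy]; group
  have hyc : (v * h⁻¹)⁻¹ * (v * c * v⁻¹) * (v * h⁻¹) ∈
      Subgroup.centralizer (((v • S : Sylow 2 G) : Subgroup G) : Set G) := by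
    rw [hy', Subgroup.mem_centralizer_iff]
    intro t ht
    exact hyZ t ht
  obtain ⟨n, hn, hn'⟩ := Sylow.conj_eq_normalizer_conj_of_mem_centralizer (v • S) (v * c * v⁻¹)
    (v * h⁻¹) hx hyc
  have hm : v⁻¹ * n⁻¹ * v ∈ Subgroup.normalizer ((S : Subgroup G) : Set G) := by
    have h1 : n⁻¹ • (v • S) = v • S :=
      Sylow.smul_eq_iff_mem_normalizer.2 (Subgroup.inv_mem _ hn)
    have h3 : (v⁻¹ * n⁻¹ * v) • S = S := by
      rw [mul_smul, mul_smul, h1, inv_smul_smul]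
    exact Sylow.smul_eq_iff_mem_normalizer.1 h3
  have h2 := hfix _ hm
  rw [← hy', hn']
  calc n⁻¹ * (v * c * v⁻¹) * n = v * ((v⁻¹ * n⁻¹ * v) * c * (v⁻¹ * n⁻¹ * v)⁻¹) * v⁻¹ := by group
    _ = v * c * v⁻¹ := by rw [h2]

/-- the involution of a cyclic characteristic subgroup of a Sylow 2-subgroup is weakly closed,
when intersections of distinct Sylow 2-subgroups are central in some Sylow 2-subgroup -/
theorem cc_isolated
    (hCI : ∀ S T : Sylow 2 G, S ≠ T → ∃ U : Sylow 2 G,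
      (S : Subgroup G) ⊓ (T : Subgroup G) ≤
        (Subgroup.center ↥(U : Subgroup G)).map (U : Subgroup G).subtype)
    (S : Sylow 2 G) (C : Subgroup ↥(S : Subgroup G)) (hCc : IsCyclic ↥C)
    (hCh : C.Characteristic) (c : ↥(S : Subgroup G)) (hc : c ∈ C) (hc2 : orderOf c = 2) :
    ∀ g : G, g * (c : G) * g⁻¹ ∈ (S : Subgroup G) → g * (c : G) * g⁻¹ = (c : G) := by
  haveI : Fact (Nat.Prime 2) := ⟨Nat.prime_two⟩
  intro g hd
  have hfix := fun n hn => cc_norm_fix S C hCc hCh c hc hc2 n hn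
  have hcZ : ∀ s ∈ (S : Subgroup G), s * (c : G) = (c : G) * s := by
    intro s hs
    have h1 := hfix s (Subgroup.le_normalizer hs)
    calc s * (c : G) = s * c * s⁻¹ * s := by group
      _ = c * s := by rw [h1]
  obtain ⟨d, hdd⟩ : ∃ d, d = g * (c : G) * g⁻¹ := ⟨_, rfl⟩
  rw [← hdd] at hd ⊢
  have hcd : (c : G) * d = d * c := (hcZ d hd).symm
  obtain ⟨g', hg'd, hg'c⟩ := cc_lemmaA S c d g c.2 hcZ hdd.symm hcd
  by_cases hT : g' • S = S
  · have hn : g' ∈ Subgroup.normalizer ((S : Subgroup G) : Set G) :=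
      Sylow.smul_eq_iff_mem_normalizer.1 hT
    rw [← hg'd]; exact hfix g' hn
  · obtain ⟨U, hU⟩ := hCI S (g' • S) (fun h => hT h.symm)
    obtain ⟨v, hv⟩ := MulAction.exists_smul_eq G S U
    have hcT : (c : G) ∈ ((g' • S : Sylow 2 G) : Subgroup G) :=
      (Cfsg.Agent.Helper2.mem_sylow_smul_iff g' S _).2 hg'c
    have hdT : d ∈ ((g' • S : Sylow 2 G) : Subgroup G) := by
      apply (Cfsg.Agent.Helper2.mem_sylow_smul_iff g' S _).2
      rw [← hg'd]
      have h1 : g'⁻¹ * (g' * (c : G) * g'⁻¹) * g' = c := by group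
      rw [h1]; exact c.2
    have hZ : ∀ y : G, y ∈ (S : Subgroup G) → y ∈ ((g' • S : Sylow 2 G) : Subgroup G) →
        ∀ t ∈ ((v • S : Sylow 2 G) : Subgroup G), t * y = y * t := by
      intro y hyS hyT t ht
      rw [hv] at ht
      obtain ⟨z, hz, hzy⟩ := hU ⟨hyS, hyT⟩
      have h1 := Subgroup.mem_center_iff.1 hz ⟨t, ht⟩
      have h2 : t * (z : G) = (z : G) * t := congrArg Subtype.val h1
      rw [← hzy]; exact h2
    have e1 := cc_lemmaB S c hfix hcZ v c 1 (by group) (hZ c c.2 hcT)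
    have e2 := cc_lemmaB S c hfix hcZ v d g' hg'd (hZ d hd hdT)
    rw [e2, ← e1]

end

end Cfsg.Agent.Helper8
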