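import Cfsg.Agent.Helper8.StronglyEmbedded
import Mathlib.GroupTheory.Sylow
import Mathlib.GroupTheory.PGroup

set_option autoImplicit false

namespace Cfsg.Agent.Helper8

variable {G : Type*} [Group G] [Finite G]

/-- A subgroup of even order contains an involution. -/
theorem exists_invol_of_even (K : Subgroup G) (h : Even (Nat.card K)) :
    ∃ t ∈ K, t ≠ 1 ∧ t * t = 1 := by
  have : Fact (Nat.Prime 2) := ⟨Nat.prime_two⟩
  obtain ⟨t, ht⟩ := exists_prime_orderOf_dvd_card' (G := K) 2 (even_iff_two_dvd.mp h)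
  refine ⟨t.1, t.2, ?_, ?_⟩
  · intro h
    have : t = 1 := Subtype.ext h
    rw [this, orderOf_one] at ht
    omega
  · have := sq_of_orderOf_two ht
    exact congrArg Subtype.val this

/-- A non-trivial `2`-subgroup has even order. -/
theorem even_card_of_two_group (K : Subgroup G) (hK : IsPGroup 2 K) (hne : K ≠ ⊥) :
    Even (Nat.card K) := by
  have : Fact (Nat.Prime 2) := ⟨Nat.prime_two⟩
  obtain ⟨n, hn⟩ := IsPGroup.iff_card.mp hK
  rcases n with _ | n
  · exfalso
    apply hne
    exact Subgroup.eq_bot_of_card_eq K (by simpa using hn)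
  · rw [hn, pow_succ]
    exact even_two.mul_left _

/-- A non-trivial `2`-subgroup contains an involution. -/
theorem exists_invol_of_two_group (K : Subgroup G) (hK : IsPGroup 2 K) (hne : K ≠ ⊥) :
    ∃ t ∈ K, t ≠ 1 ∧ t * t = 1 :=
  exists_invol_of_even K (even_card_of_two_group K hK hne)

/-- A non-trivial `2`-subgroup contains a central involution. -/
theorem exists_central_invol (K : Subgroup G) (hK : IsPGroup 2 K) (hne : K ≠ ⊥) :
    ∃ z ∈ K, z ≠ 1 ∧ z * z = 1 ∧ ∀ x ∈ K, z * x = x * z := by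
  have : Fact (Nat.Prime 2) := ⟨Nat.prime_two⟩
  have hnt : Nontrivial K := (Subgroup.nontrivial_iff_ne_bot K).mpr hne
  have hZ : Nontrivial (Subgroup.center K) := hK.center_nontrivial
  have hZne : (Subgroup.center K) ≠ ⊥ := (Subgroup.nontrivial_iff_ne_bot _).mp hZ
  have hZp : IsPGroup 2 (Subgroup.center K) := hK.to_subgroup _
  obtain ⟨z, hz, hz1, hzz⟩ := exists_invol_of_two_group (G := K) (Subgroup.center K) hZp hZne
  refine ⟨z.1, z.2, ?_, ?_, ?_⟩
  · intro h; exact hz1 (Subtype.ext h)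
  · exact congrArg Subtype.val hzz
  · intro x hx
    rw [Subgroup.mem_center_iff] at hz
    have := hz ⟨x, hx⟩
    exact (congrArg Subtype.val this).symm

/-- A subgroup all of whose elements square to one is a `2`-group. -/
theorem isPGroup_two_of_sq (K : Subgroup G) (h : ∀ c ∈ K, c ^ 2 = 1) : IsPGroup 2 K := by
  intro c
  refine ⟨1, ?_⟩
  apply Subtype.ext
  simpa using h c.1 c.2

/-- An element of order dividing two normalising a Sylow `2`-subgroup lies in it. -/
theorem mem_sylow_of_mem_normalizer (T : Sylow 2 G) {s : G}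
    (hs : s ∈ Subgroup.normalizer ((T : Subgroup G) : Set G)) (hss : s * s = 1) :
    s ∈ (T : Subgroup G) := by
  have hp : IsPGroup 2 (Subgroup.zpowers s) := by
    rintro ⟨c, hc⟩
    obtain ⟨k, rfl⟩ := Subgroup.mem_zpowers_iff.mp hc
    refine ⟨1, ?_⟩
    apply Subtype.ext
    show (s ^ k) ^ 2 ^ 1 = 1
    rw [pow_one, ← zpow_natCast, ← zpow_mul, mul_comm, zpow_mul, zpow_natCast, pow_two, hss, one_zpow]
  have hle : Subgroup.zpowers s ≤ Subgroup.normalizer ((T : Subgroup G) : Set G) :=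
    Subgroup.zpowers_le.mpr hs
  have h1 := hp.to_sup_of_normal_right' T.isPGroup' hle
  have h2 := T.is_maximal' h1 le_sup_right
  have : s ∈ Subgroup.zpowers s ⊔ (T : Subgroup G) :=
    Subgroup.mem_sup_left (Subgroup.mem_zpowers s)
  rw [h2] at this
  exact this

/-- Structure of a Sylow 2-subgroup `T ≠ 1` when involution centralizers are elementary abelian
`2`-groups: `T` is elementary abelian and is the centralizer of each of its involutions. -/
theorem ec_struct (T : Sylow 2 G) (hne : (T : Subgroup G) ≠ ⊥)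
    (hC : ∀ t : G, orderOf t = 2 → IsMulCommutative (Subgroup.centralizer ({t} : Set G)) ∧
      ∀ c ∈ Subgroup.centralizer ({t} : Set G), c ^ 2 = 1) :
    (∀ x ∈ (T : Subgroup G), ∀ y ∈ (T : Subgroup G), x * y = y * x) ∧
      (∀ x ∈ (T : Subgroup G), x * x = 1) ∧
      (∀ t ∈ (T : Subgroup G), t ≠ 1 → ∀ c : G, t * c = c * t → c ∈ (T : Subgroup G)) := by
  have memC : ∀ t c : G, c ∈ Subgroup.centralizer ({t} : Set G) ↔ t * c = c * t := by
    intro t c
    rw [Subgroup.mem_centralizer_iff]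
    simp
  obtain ⟨z, hzT, hz1, hzz, hzc⟩ := exists_central_invol (T : Subgroup G) T.isPGroup' hne
  have hz2 : orderOf z = 2 := orderOf_two_of_sq hz1 hzz
  obtain ⟨hcomm, hexp⟩ := hC z hz2
  have hTle : (T : Subgroup G) ≤ Subgroup.centralizer ({z} : Set G) := by
    intro x hx
    exact (memC z x).mpr (hzc x hx)
  have hCz : Subgroup.centralizer ({z} : Set G) = T :=
    T.is_maximal' (isPGroup_two_of_sq _ hexp) hTle
  have hab : ∀ x ∈ (T : Subgroup G), ∀ y ∈ (T : Subgroup G), x * y = y * x := by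
    intro x hx y hy
    have := mul_comm' (⟨x, hTle hx⟩ : Subgroup.centralizer ({z} : Set G)) ⟨y, hTle hy⟩
    exact congrArg Subtype.val this
  have hsq : ∀ x ∈ (T : Subgroup G), x * x = 1 := by
    intro x hx
    rw [← pow_two]
    exact hexp x (hTle hx)
  refine ⟨hab, hsq, ?_⟩
  intro t ht ht1 c hc
  have ht2 : orderOf t = 2 := orderOf_two_of_sq ht1 (hsq t ht)
  obtain ⟨-, hexp'⟩ := hC t ht2
  have hTle' : (T : Subgroup G) ≤ Subgroup.centralizer ({t} : Set G) := by
    intro x hx
    exact (memC t x).mpr (hab t ht x hx)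
  have hCt : Subgroup.centralizer ({t} : Set G) = T :=
    T.is_maximal' (isPGroup_two_of_sq _ hexp') hTle'
  rw [← hCt]
  exact (memC t c).mpr hc

/-- Under the hypotheses of `ec_struct`, distinct conjugates of `T` meet trivially: if a
non-trivial element of `T` has a conjugate `g⁻¹ s g` in `T` then `g` normalises `T`. -/
theorem ec_ti (T : Sylow 2 G) (hne : (T : Subgroup G) ≠ ⊥)
    (hC : ∀ t : G, orderOf t = 2 → IsMulCommutative (Subgroup.centralizer ({t} : Set G)) ∧
      ∀ c ∈ Subgroup.centralizer ({t} : Set G), c ^ 2 = 1)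
    {s g : G} (hs : s ∈ (T : Subgroup G)) (hs1 : s ≠ 1) (hg : g⁻¹ * s * g ∈ (T : Subgroup G)) :
    g ∈ Subgroup.normalizer ((T : Subgroup G) : Set G) := by
  obtain ⟨hab, hsq, hcent⟩ := ec_struct T hne hC
  have hs1' : g⁻¹ * s * g ≠ 1 := by
    intro h
    apply hs1
    calc s = g * (g⁻¹ * s * g) * g⁻¹ := by group
      _ = 1 := by rw [h]; group
  have key1 : ∀ x ∈ (T : Subgroup G), g * x * g⁻¹ ∈ (T : Subgroup G) := by
    intro x hx
    apply hcent s hs hs1
    have := hab (g⁻¹ * s * g) hg x hx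
    calc s * (g * x * g⁻¹) = g * ((g⁻¹ * s * g) * x) * g⁻¹ := by group
      _ = g * (x * (g⁻¹ * s * g)) * g⁻¹ := by rw [this]
      _ = g * x * g⁻¹ * s := by group
  have key2 : ∀ x ∈ (T : Subgroup G), g⁻¹ * x * g ∈ (T : Subgroup G) := by
    intro x hx
    apply hcent _ hg hs1'
    have := hab s hs x hx
    calc g⁻¹ * s * g * (g⁻¹ * x * g) = g⁻¹ * (s * x) * g := by group
      _ = g⁻¹ * (x * s) * g := by rw [this]
      _ = g⁻¹ * x * g * (g⁻¹ * s * g) := by group
  rw [Subgroup.mem_normalizer_iff]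
  intro h
  constructor
  · exact key1 h
  · intro hh
    have := key2 _ hh
    have e : g⁻¹ * (g * h * g⁻¹) * g = h := by group
    rwa [e] at this

/-- `N_G(T)` is strongly embedded (statement S1226). -/
theorem ec_se (T : Sylow 2 G) (hne : (T : Subgroup G) ≠ ⊥) (hnn : ¬ (T : Subgroup G).Normal)
    (hC : ∀ t : G, orderOf t = 2 → IsMulCommutative (Subgroup.centralizer ({t} : Set G)) ∧
      ∀ c ∈ Subgroup.centralizer ({t} : Set G), c ^ 2 = 1) :
    Cfsg.IsStronglyEmbedded (Subgroup.normalizer ((T : Subgroup G) : Set G)) := by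
  refine ⟨?_, ?_, ?_⟩
  · intro h
    exact hnn (Subgroup.normalizer_eq_top_iff.mp h)
  · have h1 : Even (Nat.card (T : Subgroup G)) := even_card_of_two_group _ T.isPGroup' hne
    have h2 : Nat.card (T : Subgroup G) ∣ Nat.card (Subgroup.normalizer ((T : Subgroup G) : Set G)) :=
      Subgroup.card_dvd_of_le Subgroup.le_normalizer
    exact h1.trans_dvd h2
  · intro g hg
    by_contra hodd
    rw [Nat.not_odd_iff_even] at hodd
    obtain ⟨s, hs, hs1, hss⟩ := exists_invol_of_even _ hodd
    obtain ⟨hs1', hs2'⟩ := Subgroup.mem_inf.mp hs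
    rw [mem_map_conj_iff] at hs2'
    have hsT : s ∈ (T : Subgroup G) := mem_sylow_of_mem_normalizer T hs1' hss
    have hss' : (g⁻¹ * s * g) * (g⁻¹ * s * g) = 1 := by
      calc (g⁻¹ * s * g) * (g⁻¹ * s * g) = g⁻¹ * (s * s) * g := by group
        _ = 1 := by rw [hss]; group
    have hsT' : g⁻¹ * s * g ∈ (T : Subgroup G) := mem_sylow_of_mem_normalizer T hs2' hss'
    exact hg (ec_ti T hne hC hsT hs1 hsT')

end Cfsg.Agent.Helper8
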