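import Mathlib.GroupTheory.OrderOfElement
import Mathlib.Tactic.Group
import Mathlib.Tactic.Ring
import Mathlib.GroupTheory.Index
import Mathlib.Algebra.Group.Subgroup.Pointwise
import Mathlib.SetTheory.Cardinal.Finite

set_option autoImplicit false

namespace Cfsg.Agent.Helper8

/-- Conjugation by an involution `t` commutes with taking powers. -/
theorem conj_pow_eq {M : Type*} [Group M] (t w : M) (n : ℕ) :
    t * w ^ n * t⁻¹ = (t * w * t⁻¹) ^ n := by
  induction n with
  | zero => simp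
  | succ n ih =>
    rw [pow_succ, pow_succ, ← ih]; group

/-- An element of a finite subgroup of odd order `2k+1` is the `(k+1)`-th power of its square. -/
theorem eq_sq_pow_of_odd {M : Type*} [Group M] (X : Subgroup M) [Finite X] {k : ℕ}
    (hk : Nat.card X = 2 * k + 1) {z : M} (hz : z ∈ X) : (z * z) ^ (k + 1) = z := by
  have h1 : (⟨z, hz⟩ : X) ^ Nat.card X = 1 := pow_card_eq_one'
  have h2 : z ^ (2 * k + 1) = 1 := by
    rw [hk] at h1
    exact congrArg Subtype.val h1
  calc (z * z) ^ (k + 1) = z ^ (2 * k + 1) * z := by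
        rw [← pow_two, ← pow_mul, ← pow_succ]; congr 1
    _ = z := by rw [h2, one_mul]

/-- Elements of a finite subgroup of odd order with equal squares are equal. -/
theorem eq_of_sq_eq_of_odd {M : Type*} [Group M] (X : Subgroup M) [Finite X]
    (hodd : Odd (Nat.card X)) {z z' : M} (hz : z ∈ X) (hz' : z' ∈ X) (h : z * z = z' * z') :
    z = z' := by
  obtain ⟨k, hk⟩ := hodd
  rw [← eq_sq_pow_of_odd X hk hz, ← eq_sq_pow_of_odd X hk hz', h]

/-- An involution in a subgroup of odd order is trivial. -/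
theorem eq_one_of_sq_eq_one_of_odd {M : Type*} [Group M] (X : Subgroup M) [Finite X]
    (hodd : Odd (Nat.card X)) {z : M} (hz : z ∈ X) (h : z * z = 1) : z = 1 :=
  eq_of_sq_eq_of_odd X hodd hz X.one_mem (by rw [h, one_mul])

/-- Existence in the decomposition `X = C_X(t) * I_X(t)` for a subgroup `X` of odd order
normalised by an involution `t`. -/
theorem odd_inv_decomp_exists {M : Type*} [Group M] (t : M) (ht : t * t = 1) (X : Subgroup M)
    [Finite X] (hodd : Odd (Nat.card X)) (hnorm : ∀ x ∈ X, t * x * t⁻¹ ∈ X) (x : M) (hx : x ∈ X) :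
    ∃ y z : M, y ∈ X ∧ t * y * t⁻¹ = y ∧ z ∈ X ∧ t * z * t⁻¹ = z⁻¹ ∧ x = y * z := by
  have hti : t⁻¹ = t := inv_eq_of_mul_eq_one_left ht
  obtain ⟨k, hk⟩ := hodd
  set w := x⁻¹ * (t * x * t⁻¹) with hw
  have hwX : w ∈ X := X.mul_mem (X.inv_mem hx) (hnorm x hx)
  have ht' : ∀ u : M, t * (t * u) = u := fun u => by rw [← mul_assoc, ht, one_mul]
  have hwt : t * w⁻¹ * t⁻¹ = w := by
    rw [hw]
    simp only [hti, mul_inv_rev, inv_inv, mul_assoc, ht']
  set z := (w⁻¹) ^ (k + 1) with hz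
  have hzX : z ∈ X := X.pow_mem (X.inv_mem hwX) _
  have hzz : z * z = w⁻¹ := by
    have := eq_sq_pow_of_odd X hk (X.inv_mem hwX)
    rw [hz, ← pow_add]
    rw [← pow_two, ← pow_mul] at this
    rw [← this]; congr 1; ring
  have hzt : t * z * t⁻¹ = z⁻¹ := by
    rw [hz, conj_pow_eq, hwt, ← inv_pow, inv_inv]
  refine ⟨x * z⁻¹, z, X.mul_mem hx (X.inv_mem hzX), ?_, hzX, hzt, by group⟩
  have hz2 : t * z⁻¹ * t⁻¹ = z := by
    have := congrArg (fun u => u⁻¹) hzt
    simp only [mul_inv_rev, inv_inv] at this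
    rw [← mul_assoc] at this
    exact this
  have hw2 : w = z⁻¹ * z⁻¹ := by
    have := congrArg (fun u => u⁻¹) hzz
    simp only [mul_inv_rev, inv_inv] at this
    exact this.symm
  calc t * (x * z⁻¹) * t⁻¹ = (t * x * t⁻¹) * (t * z⁻¹ * t⁻¹) := by group
    _ = (x * w) * z := by rw [hz2, hw]; group
    _ = x * z⁻¹ := by rw [hw2]; group

/-- Uniqueness in the decomposition `X = C_X(t) * I_X(t)`. -/
theorem odd_inv_decomp_unique {M : Type*} [Group M] (t : M) (ht : t * t = 1) (X : Subgroup M)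
    [Finite X] (hodd : Odd (Nat.card X)) {y z y' z' : M}
    (hy : t * y * t⁻¹ = y) (hz : z ∈ X) (hzt : t * z * t⁻¹ = z⁻¹)
    (hy' : t * y' * t⁻¹ = y') (hz' : z' ∈ X) (hzt' : t * z' * t⁻¹ = z'⁻¹)
    (h : y * z = y' * z') : y = y' ∧ z = z' := by
  have hti : t⁻¹ = t := inv_eq_of_mul_eq_one_left ht
  have h2 : y * z⁻¹ = y' * z'⁻¹ := by
    have := congrArg (fun u => t * u * t⁻¹) h
    calc y * z⁻¹ = (t * y * t⁻¹) * (t * z * t⁻¹) := by rw [hy, hzt]
      _ = t * (y * z) * t⁻¹ := by group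
      _ = t * (y' * z') * t⁻¹ := this
      _ = (t * y' * t⁻¹) * (t * z' * t⁻¹) := by group
      _ = y' * z'⁻¹ := by rw [hy', hzt']
  have h3 : z * z = z' * z' := by
    have e1 : z * z = (y * z⁻¹)⁻¹ * (y * z) := by group
    have e2 : z' * z' = (y' * z'⁻¹)⁻¹ * (y' * z') := by group
    rw [e1, e2, h, h2]
  have hzz : z = z' := eq_of_sq_eq_of_odd X hodd hz hz' h3
  subst hzz
  exact ⟨mul_right_cancel h, rfl⟩

end Cfsg.Agent.Helper8
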