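import Cfsg.Agent.Helper8.ElemCent
import Cfsg.Agent.Helper8.OddInv

set_option autoImplicit false

namespace Cfsg.Agent.Helper8

variable {G : Type*} [Group G] [Finite G]

/-- The normaliser of the Sylow subgroup (abbreviation). -/
abbrev ecH (T : Sylow 2 G) : Subgroup G := Subgroup.normalizer ((T : Subgroup G) : Set G)

/-- The two-point stabiliser `H ∩ u H u⁻¹`. -/
abbrev ecD (T : Sylow 2 G) (u : G) : Subgroup G :=
  ecH T ⊓ (ecH T).map (MulAut.conj u).toMonoidHom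

theorem ec_ne_bot (T : Sylow 2 G) (hnc : ¬ IsCyclic (T : Subgroup G)) : (T : Subgroup G) ≠ ⊥ := by
  intro h
  apply hnc
  rw [h]
  infer_instance

theorem smul_mk_one (H : Subgroup G) (g : G) :
    g • (QuotientGroup.mk 1 : G ⧸ H) = QuotientGroup.mk g := by
  rw [MulAction.Quotient.smul_mk]; simp

theorem smul_mk_one_eq_iff (H : Subgroup G) (g : G) :
    g • (QuotientGroup.mk 1 : G ⧸ H) = QuotientGroup.mk 1 ↔ g ∈ H := by
  rw [smul_mk_eq_iff]; simp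

theorem smul_smul_mk_one_eq_iff (H : Subgroup G) (g u : G) :
    g • (u • (QuotientGroup.mk 1 : G ⧸ H)) = u • (QuotientGroup.mk 1 : G ⧸ H) ↔ u⁻¹ * g * u ∈ H := by
  rw [smul_mk_one, smul_mk_eq_iff]

theorem mem_ecD_iff (T : Sylow 2 G) (u d : G) :
    d ∈ ecD T u ↔ d • (QuotientGroup.mk 1 : G ⧸ ecH T) = QuotientGroup.mk 1 ∧
      d • (u • (QuotientGroup.mk 1 : G ⧸ ecH T)) = u • (QuotientGroup.mk 1 : G ⧸ ecH T) := by
  rw [smul_mk_one_eq_iff, smul_smul_mk_one_eq_iff, Subgroup.mem_inf, mem_map_conj_iff]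

theorem ec_u_swap (T : Sylow 2 G) {u : G} (hu : u * u = 1) (huH : u ∉ ecH T) :
    u ∈ invSwap G (QuotientGroup.mk 1 : G ⧸ ecH T) (u • (QuotientGroup.mk 1 : G ⧸ ecH T)) :=
  ⟨fun h => huH (h ▸ Subgroup.one_mem _), hu, rfl⟩

theorem ec_x_ne_y (T : Sylow 2 G) {u : G} (huH : u ∉ ecH T) :
    (QuotientGroup.mk 1 : G ⧸ ecH T) ≠ u • (QuotientGroup.mk 1 : G ⧸ ecH T) :=
  fun h => huH ((smul_mk_one_eq_iff _ u).mp h.symm)

theorem ec_swap_not_mem (T : Sylow 2 G) {p : G ⧸ ecH T} (hp0 : p ≠ QuotientGroup.mk 1) {w : G}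
    (hw : w ∈ invSwap G (QuotientGroup.mk 1 : G ⧸ ecH T) p) : w ∉ ecH T := by
  intro h
  apply hp0
  rw [← hw.2.2]
  exact (smul_mk_one_eq_iff _ w).mpr h

theorem ec_card_T_gt (T : Sylow 2 G) (hnc : ¬ IsCyclic (T : Subgroup G)) :
    2 < Nat.card (T : Subgroup G) := by
  have h1 : Nat.card (T : Subgroup G) ≠ 1 := by
    intro h
    exact ec_ne_bot T hnc (Subgroup.card_eq_one.mp h)
  have h2 : Nat.card (T : Subgroup G) ≠ 2 := by
    intro h
    have : Fact (Nat.Prime 2) := ⟨Nat.prime_two⟩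
    exact hnc (isCyclic_of_prime_card h)
  have h0 : 0 < Nat.card (T : Subgroup G) := Nat.card_pos
  omega

section

variable (T : Sylow 2 G) (hnc : ¬ IsCyclic (T : Subgroup G)) (hnn : ¬ (T : Subgroup G).Normal)
  (hC : ∀ t : G, orderOf t = 2 → IsMulCommutative (Subgroup.centralizer ({t} : Set G)) ∧
      ∀ c ∈ Subgroup.centralizer ({t} : Set G), c ^ 2 = 1)

include hnc hnn hC

theorem ec_uf : ∀ s : G, s ≠ 1 → s * s = 1 → ∃! x : G ⧸ ecH T, s • x = x :=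
  se_uf (ec_se T (ec_ne_bot T hnc) hnn hC)

/-- The involutions fixing the base point are the non-identity elements of `T`. -/
theorem ec_invFix_iff (t : G) :
    t ∈ invFix G (QuotientGroup.mk 1 : G ⧸ ecH T) ↔ t ≠ 1 ∧ t ∈ (T : Subgroup G) := by
  obtain ⟨-, hsq, -⟩ := ec_struct T (ec_ne_bot T hnc) hC
  constructor
  · rintro ⟨h1, h2, h3⟩
    rw [smul_mk_one_eq_iff] at h3
    exact ⟨h1, mem_sylow_of_mem_normalizer T h3 h2⟩
  · rintro ⟨h1, h2⟩
    exact ⟨h1, hsq t h2, (smul_mk_one_eq_iff _ t).mpr (Subgroup.le_normalizer h2)⟩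

theorem ec_card_invFix :
    Nat.card (invFix G (QuotientGroup.mk 1 : G ⧸ ecH T)) = Nat.card (T : Subgroup G) - 1 := by
  have e : invFix G (QuotientGroup.mk 1 : G ⧸ ecH T) = ((T : Subgroup G) : Set G) \ {1} := by
    ext t
    rw [ec_invFix_iff T hnc hnn hC, Set.mem_sdiff, Set.mem_singleton_iff, SetLike.mem_coe]
    exact and_comm
  rw [e, Nat.card_coe_set_eq, Set.ncard_sdiff_singleton_of_mem (Subgroup.one_mem _),
    ← Nat.card_coe_set_eq]
  rfl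

theorem ec_invFix_nonempty : (invFix G (QuotientGroup.mk 1 : G ⧸ ecH T)).Nonempty := by
  obtain ⟨t, ht, ht1, -⟩ := exists_invol_of_two_group (T : Subgroup G) T.isPGroup' (ec_ne_bot T hnc)
  exact ⟨t, (ec_invFix_iff T hnc hnn hC t).mpr ⟨ht1, ht⟩⟩

/-- An element of the two-point stabiliser lying in `T` is trivial. -/
theorem ec_D_inter_T {u : G} (huH : u ∉ ecH T) {d : G} (hd : d ∈ ecD T u)
    (hdT : d ∈ (T : Subgroup G)) : d = 1 := by
  obtain ⟨-, hsq, -⟩ := ec_struct T (ec_ne_bot T hnc) hC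
  have hodd := (ec_se T (ec_ne_bot T hnc) hnn hC).2.2 u huH
  exact eq_one_of_sq_of_odd_card _ hodd hd (hsq d hdT)

/-- A non-trivial element of `T` is not centralised by a non-trivial element of `D`. -/
theorem ec_no_commute {u : G} (huH : u ∉ ecH T) {d t : G} (hd : d ∈ ecD T u) (hd1 : d ≠ 1)
    (ht : t ∈ (T : Subgroup G)) (hc : t * d = d * t) : t = 1 := by
  by_contra ht1
  obtain ⟨-, -, hcent⟩ := ec_struct T (ec_ne_bot T hnc) hC
  exact hd1 (ec_D_inter_T T hnc hnn hC huH hd (hcent t ht ht1 d hc))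

/-- `|D| = |T| - 1`. -/
theorem ec_card_D {u : G} (huH : u ∉ ecH T) :
    Nat.card (ecD T u) = Nat.card (T : Subgroup G) - 1 := by
  have huf := ec_uf T hnc hnn hC
  obtain ⟨s₀, hs₀⟩ := ec_invFix_nonempty T hnc hnn hC
  rw [← ec_card_invFix T hnc hnn hC]
  have hxy : (QuotientGroup.mk 1 : G ⧸ ecH T) ≠ u • (QuotientGroup.mk 1 : G ⧸ ecH T) := by
    intro h
    exact huH ((smul_mk_one_eq_iff _ u).mp h.symm)
  have hney : (invFix G (u • (QuotientGroup.mk 1 : G ⧸ ecH T))).Nonempty :=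
    ⟨_, invFix_conj rfl hs₀⟩
  let f : ecD T u → invFix G (QuotientGroup.mk 1 : G ⧸ ecH T) := fun d =>
    ⟨d.1 * s₀ * d.1⁻¹, invFix_conj ((mem_ecD_iff T u d.1).mp d.2).1 hs₀⟩
  have hf : Function.Bijective f := by
    constructor
    · intro d d' h
      have h' : d.1 * s₀ * d.1⁻¹ = d'.1 * s₀ * d'.1⁻¹ := congrArg Subtype.val h
      have hs₀T := ((ec_invFix_iff T hnc hnn hC s₀).mp hs₀)
      have hc : s₀ * (d'.1⁻¹ * d.1) = (d'.1⁻¹ * d.1) * s₀ := by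
        calc s₀ * (d'.1⁻¹ * d.1) = d'.1⁻¹ * (d'.1 * s₀ * d'.1⁻¹) * d.1 := by group
          _ = d'.1⁻¹ * (d.1 * s₀ * d.1⁻¹) * d.1 := by rw [h']
          _ = (d'.1⁻¹ * d.1) * s₀ := by group
      have hmem : d'.1⁻¹ * d.1 ∈ ecD T u := Subgroup.mul_mem _ (Subgroup.inv_mem _ d'.2) d.2
      have := hs₀T.1
      by_contra hne
      have h1 : d'.1⁻¹ * d.1 ≠ 1 := by
        intro h1
        apply hne
        apply Subtype.ext
        calc d.1 = d'.1 * (d'.1⁻¹ * d.1) := by group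
          _ = d'.1 := by rw [h1, mul_one]
      exact hs₀T.1 (ec_no_commute T hnc hnn hC huH hmem h1 hs₀T.2 hc)
    · rintro ⟨t, ht⟩
      obtain ⟨d, hdx, hdy, hd⟩ := exists_conj_invFix huf hxy hs₀ ht hney
      exact ⟨⟨d, (mem_ecD_iff T u d).mpr ⟨hdx, hdy⟩⟩, Subtype.ext hd⟩
  exact Nat.card_congr (Equiv.ofBijective f hf)

theorem ec_exists_D_ne_one {u : G} (huH : u ∉ ecH T) : ∃ e ∈ ecD T u, e ≠ 1 := by
  by_contra hcon
  have hall : ∀ e ∈ ecD T u, e = 1 := by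
    intro e he
    by_contra h1
    exact hcon ⟨e, he, h1⟩
  have hbot : ecD T u = ⊥ := (Subgroup.eq_bot_iff_forall _).mpr hall
  have h1 := ec_card_D T hnc hnn hC huH
  rw [hbot, Subgroup.card_bot] at h1
  have h2 := ec_card_T_gt T hnc
  omega

theorem ec_exists_swap {p : G ⧸ ecH T} (hp0 : p ≠ QuotientGroup.mk 1) :
    ∃ w, w ∈ invSwap G (QuotientGroup.mk 1 : G ⧸ ecH T) p := by
  have huf := ec_uf T hnc hnn hC
  obtain ⟨g, rfl⟩ := QuotientGroup.mk_surjective p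
  have hg : g • (QuotientGroup.mk 1 : G ⧸ ecH T) = QuotientGroup.mk g := smul_mk_one _ g
  have hc := card_invSwap_eq huf (Ne.symm hp0) hg (ec_invFix_nonempty T hnc hnn hC)
  have hpos : 0 < Nat.card (invSwap G (QuotientGroup.mk 1 : G ⧸ ecH T)
      (QuotientGroup.mk g : G ⧸ ecH T)) := by
    rw [hc]
    have : Nonempty (invFix G (QuotientGroup.mk 1 : G ⧸ ecH T)) :=
      (ec_invFix_nonempty T hnc hnn hC).to_subtype
    exact Nat.card_pos
  obtain ⟨w⟩ := (Nat.card_pos_iff.mp hpos).1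
  exact ⟨w.1, w.2⟩

/-- `u` inverts the two-point stabiliser `D`. -/
theorem ec_inverts {u : G} (hu : u * u = 1) (huH : u ∉ ecH T) {d : G} (hd : d ∈ ecD T u) :
    u * d * u⁻¹ = d⁻¹ := by
  have huf := ec_uf T hnc hnn hC
  have hxy := ec_x_ne_y T huH
  have husw := ec_u_swap T hu huH
  have hui : u⁻¹ = u := inv_eq_self_of_sq hu
  have hcard : Nat.card (invSwap G (QuotientGroup.mk 1 : G ⧸ ecH T)
      (u • (QuotientGroup.mk 1 : G ⧸ ecH T))) = Nat.card (ecD T u) := by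
    rw [card_invSwap_eq huf hxy rfl (ec_invFix_nonempty T hnc hnn hC),
      ec_card_invFix T hnc hnn hC, ec_card_D T hnc hnn hC huH]
  let f : invSwap G (QuotientGroup.mk 1 : G ⧸ ecH T) (u • (QuotientGroup.mk 1 : G ⧸ ecH T)) →
      ecD T u := fun w =>
    ⟨u * w.1, (mem_ecD_iff T u _).mpr
      ⟨by rw [mul_smul, w.2.2.2, invSwap_symm husw], by rw [mul_smul, invSwap_symm w.2]⟩⟩
  have hf : Function.Injective f := by
    intro w w' h
    have : u * w.1 = u * w'.1 := congrArg Subtype.val h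
    exact Subtype.ext (mul_left_cancel this)
  have hb : Function.Bijective f := hf.bijective_of_nat_card_le hcard.ge
  obtain ⟨w, hw⟩ := hb.2 ⟨d, hd⟩
  have hw' : u * w.1 = d := congrArg Subtype.val hw
  have hwi := invSwap_inv w.2
  rw [← hw', mul_inv_rev, hwi, hui, ← mul_assoc, hu, one_mul]

/-- `H = D T`. -/
theorem ec_factor {u : G} (huH : u ∉ ecH T) {h : G} (hh : h ∈ ecH T) :
    ∃ d ∈ ecD T u, ∃ t ∈ (T : Subgroup G), h = d * t := by
  have huf := ec_uf T hnc hnn hC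
  have hxy := ec_x_ne_y T huH
  obtain ⟨s₀, hs₀⟩ := ec_invFix_nonempty T hnc hnn hC
  obtain ⟨-, -, hcent⟩ := ec_struct T (ec_ne_bot T hnc) hC
  have hs₀T := (ec_invFix_iff T hnc hnn hC s₀).mp hs₀
  have hney : (invFix G (u • (QuotientGroup.mk 1 : G ⧸ ecH T))).Nonempty :=
    ⟨_, invFix_conj rfl hs₀⟩
  have ht : h * s₀ * h⁻¹ ∈ invFix G (QuotientGroup.mk 1 : G ⧸ ecH T) :=
    invFix_conj ((smul_mk_one_eq_iff _ h).mpr hh) hs₀
  obtain ⟨d, hdx, hdy, hd⟩ := exists_conj_invFix huf hxy hs₀ ht hney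
  refine ⟨d, (mem_ecD_iff T u d).mpr ⟨hdx, hdy⟩, d⁻¹ * h, ?_, by group⟩
  apply hcent s₀ hs₀T.2 hs₀T.1
  calc s₀ * (d⁻¹ * h) = d⁻¹ * (d * s₀ * d⁻¹) * h := by group
    _ = d⁻¹ * (h * s₀ * h⁻¹) * h := by rw [hd]
    _ = d⁻¹ * h * s₀ := by group

/-- `D` is abelian. -/
theorem ec_D_comm {u : G} (hu : u * u = 1) (huH : u ∉ ecH T) {d e : G} (hd : d ∈ ecD T u)
    (he : e ∈ ecD T u) : d * e = e * d := by
  have h1 := ec_inverts T hnc hnn hC hu huH hd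
  have h2 := ec_inverts T hnc hnn hC hu huH he
  have h3 := ec_inverts T hnc hnn hC hu huH (Subgroup.mul_mem _ hd he)
  have h4 : u * (d * e) * u⁻¹ = (u * d * u⁻¹) * (u * e * u⁻¹) := by group
  rw [h4, h1, h2, mul_inv_rev] at h3
  have := congrArg (fun z => z⁻¹) h3
  simp only [mul_inv_rev, inv_inv] at this
  exact this.symm

theorem ec_D_eq_of_fix {u : G} (huH : u ∉ ecH T) {p : G ⧸ ecH T} (hp0 : p ≠ QuotientGroup.mk 1)
    {w : G} (hw : w ∈ invSwap G (QuotientGroup.mk 1 : G ⧸ ecH T) p)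
    (hp : ∀ d ∈ ecD T u, d • p = p) : ecD T u = ecD T w := by
  have hwH := ec_swap_not_mem T hp0 hw
  have hle : ecD T u ≤ ecD T w := by
    intro d hd
    rw [mem_ecD_iff, hw.2.2]
    exact ⟨((mem_ecD_iff T u d).mp hd).1, hp d hd⟩
  apply Subgroup.eq_of_le_of_card_ge hle
  rw [ec_card_D T hnc hnn hC huH, ec_card_D T hnc hnn hC hwH]

/-- The only points fixed by all of `D` are the two base points. -/
theorem ec_fix_D {u : G} (hu : u * u = 1) (huH : u ∉ ecH T) {p : G ⧸ ecH T}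
    (hp : ∀ d ∈ ecD T u, d • p = p) :
    p = QuotientGroup.mk 1 ∨ p = u • (QuotientGroup.mk 1 : G ⧸ ecH T) := by
  by_contra hcon
  rw [not_or] at hcon
  obtain ⟨hp0, hpy⟩ := hcon
  obtain ⟨w, hw⟩ := ec_exists_swap T hnc hnn hC hp0
  have hwH := ec_swap_not_mem T hp0 hw
  have hDw := ec_D_eq_of_fix T hnc hnn hC huH hp0 hw hp
  have hww := hw.2.1
  have hinvw : ∀ d ∈ ecD T u, w * d * w⁻¹ = d⁻¹ := by
    intro d hd
    rw [hDw] at hd
    exact ec_inverts T hnc hnn hC hww hwH hd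
  have hinvu : ∀ d ∈ ecD T u, u * d * u⁻¹ = d⁻¹ :=
    fun d hd => ec_inverts T hnc hnn hC hu huH hd
  have hui : u⁻¹ = u := inv_eq_self_of_sq hu
  have hp'0 : u • p ≠ QuotientGroup.mk 1 := by
    intro h
    apply hpy
    calc p = u • (u • p) := by rw [← mul_smul, hu, one_smul]
      _ = u • QuotientGroup.mk 1 := by rw [h]
  have hp' : ∀ d ∈ ecD T u, d • (u • p) = u • p := by
    intro d hd
    have h1 : d * u = u * d⁻¹ := by
      have := hinvu d hd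
      calc d * u = u⁻¹ * (u * d * u⁻¹) * (u * u) := by group
        _ = u * d⁻¹ := by rw [this, hu, hui, mul_one]
    rw [← mul_smul, h1, mul_smul, hp _ (Subgroup.inv_mem _ hd)]
  obtain ⟨w₃, hw₃⟩ := ec_exists_swap T hnc hnn hC hp'0
  have hw₃H := ec_swap_not_mem T hp'0 hw₃
  have hDw₃ := ec_D_eq_of_fix T hnc hnn hC huH hp'0 hw₃ hp'
  have hinvw₃ : ∀ d ∈ ecD T u, w₃ * d * w₃⁻¹ = d⁻¹ := by
    intro d hd
    rw [hDw₃] at hd
    exact ec_inverts T hnc hnn hC hw₃.2.1 hw₃H hd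
  have hh : w₃ * u * w ∈ ecH T := by
    rw [← smul_mk_one_eq_iff, mul_smul, mul_smul, hw.2.2, invSwap_symm hw₃]
  have hinvh : ∀ d ∈ ecD T u, (w₃ * u * w) * d * (w₃ * u * w)⁻¹ = d⁻¹ := by
    intro d hd
    have h1 := hinvw d hd
    have h2 := hinvu _ (Subgroup.inv_mem _ hd)
    have h3 := hinvw₃ d hd
    calc (w₃ * u * w) * d * (w₃ * u * w)⁻¹ = w₃ * (u * (w * d * w⁻¹) * u⁻¹) * w₃⁻¹ := by group
      _ = w₃ * d * w₃⁻¹ := by rw [h1, h2, inv_inv]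
      _ = d⁻¹ := h3
  obtain ⟨d₀, hd₀, t₀, ht₀, hfac⟩ := ec_factor T hnc hnn hC huH hh
  have hall : ∀ e ∈ ecD T u, e = 1 := by
    intro e he
    have h1 := hinvh e he
    rw [hfac] at h1
    have h2 : t₀ * e * t₀⁻¹ = e⁻¹ := by
      have hc := ec_D_comm T hnc hnn hC hu huH hd₀ (Subgroup.inv_mem _ he)
      calc t₀ * e * t₀⁻¹ = d₀⁻¹ * (d₀ * t₀ * e * (d₀ * t₀)⁻¹) * d₀ := by group
        _ = d₀⁻¹ * e⁻¹ * d₀ := by rw [h1]
        _ = d₀⁻¹ * (e⁻¹ * d₀) := by group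
        _ = d₀⁻¹ * (d₀ * e⁻¹) := by rw [hc]
        _ = e⁻¹ := by group
    have heH : e ∈ ecH T := (Subgroup.mem_inf.mp he).1
    have h3 : e * e = (e * t₀⁻¹ * e⁻¹) * t₀ := by
      calc e * e = e * (t₀⁻¹ * (t₀ * e * t₀⁻¹) * t₀) := by group
        _ = e * (t₀⁻¹ * e⁻¹ * t₀) := by rw [h2]
        _ = (e * t₀⁻¹ * e⁻¹) * t₀ := by group
    have h4 : e * e ∈ (T : Subgroup G) := by
      rw [h3]
      apply Subgroup.mul_mem _ _ ht₀
      exact (Subgroup.mem_normalizer_iff.mp heH t₀⁻¹).mp (Subgroup.inv_mem _ ht₀)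
    have h5 : e * e = 1 := ec_D_inter_T T hnc hnn hC huH (Subgroup.mul_mem _ he he) h4
    have hodd := (ec_se T (ec_ne_bot T hnc) hnn hC).2.2 u huH
    exact eq_one_of_sq_of_odd_card _ hodd he h5
  obtain ⟨e, he, he1⟩ := ec_exists_D_ne_one T hnc hnn hC huH
  exact he1 (hall e he)

/-- A non-trivial element of `D` fixes only the two base points. -/
theorem ec_fix_one {u : G} (hu : u * u = 1) (huH : u ∉ ecH T) {e : G} (he : e ∈ ecD T u)
    (he1 : e ≠ 1) {p : G ⧸ ecH T} (hp : e • p = p) :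
    p = QuotientGroup.mk 1 ∨ p = u • (QuotientGroup.mk 1 : G ⧸ ecH T) := by
  by_cases hp0 : p = QuotientGroup.mk 1
  · exact Or.inl hp0
  obtain ⟨w, hw⟩ := ec_exists_swap T hnc hnn hC hp0
  have hwH := ec_swap_not_mem T hp0 hw
  have heDw : e ∈ ecD T w := by
    rw [mem_ecD_iff, hw.2.2]
    exact ⟨((mem_ecD_iff T u e).mp he).1, hp⟩
  have hle : ecD T w ≤ ecD T u := by
    intro f hf
    obtain ⟨d₁, hd₁, t₁, ht₁, hfac⟩ := ec_factor T hnc hnn hC huH (Subgroup.mem_inf.mp hf).1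
    have hc : f * e = e * f := ec_D_comm T hnc hnn hC hw.2.1 hwH hf heDw
    have hc' : d₁ * e = e * d₁ := ec_D_comm T hnc hnn hC hu huH hd₁ he
    have ht : t₁ * e = e * t₁ := by
      calc t₁ * e = d₁⁻¹ * ((d₁ * t₁) * e) := by group
        _ = d₁⁻¹ * (e * (d₁ * t₁)) := by rw [← hfac, hc]
        _ = d₁⁻¹ * (e * d₁) * t₁ := by group
        _ = d₁⁻¹ * (d₁ * e) * t₁ := by rw [hc']
        _ = e * t₁ := by group
    have ht1 : t₁ = 1 := ec_no_commute T hnc hnn hC huH he he1 ht₁ ht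
    rw [hfac, ht1, mul_one]
    exact hd₁
  have hDeq : ecD T w = ecD T u := by
    apply Subgroup.eq_of_le_of_card_ge hle
    rw [ec_card_D T hnc hnn hC huH, ec_card_D T hnc hnn hC hwH]
  apply ec_fix_D T hnc hnn hC hu huH
  intro d hd
  rw [← hDeq] at hd
  have := ((mem_ecD_iff T w d).mp hd).2
  rwa [hw.2.2] at this

/-- `T` is transitive on the points other than the base point. -/
theorem ec_T_trans {u : G} (hu : u * u = 1) (huH : u ∉ ecH T) {q : G ⧸ ecH T}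
    (hq0 : q ≠ QuotientGroup.mk 1) :
    ∃ t ∈ (T : Subgroup G), t • (u • (QuotientGroup.mk 1 : G ⧸ ecH T)) = q := by
  obtain ⟨hab, hsq, hcent⟩ := ec_struct T (ec_ne_bot T hnc) hC
  obtain ⟨w, hw⟩ := ec_exists_swap T hnc hnn hC hq0
  have hwH := ec_swap_not_mem T hq0 hw
  obtain ⟨e, he, he1⟩ := ec_exists_D_ne_one T hnc hnn hC hwH
  obtain ⟨d₀, hd₀, t₀, ht₀, hfac⟩ := ec_factor T hnc hnn hC huH (Subgroup.mem_inf.mp he).1
  have hd₀1 : d₀ ≠ 1 := by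
    intro h
    rw [h, one_mul] at hfac
    apply he1
    exact ec_D_inter_T T hnc hnn hC hwH he (hfac ▸ ht₀)
  have hd₀H : d₀ ∈ ecH T := (Subgroup.mem_inf.mp hd₀).1
  have hmem : ∀ t : (T : Subgroup G), d₀⁻¹ * t.1⁻¹ * d₀ * t.1 ∈ (T : Subgroup G) := by
    intro t
    apply Subgroup.mul_mem _ _ t.2
    exact (Subgroup.mem_normalizer_iff''.mp hd₀H t.1⁻¹).mp (Subgroup.inv_mem _ t.2)
  let ψ : ↥(T : Subgroup G) → ↥(T : Subgroup G) := fun t => ⟨d₀⁻¹ * t.1⁻¹ * d₀ * t.1, hmem t⟩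
  have hinj : Function.Injective ψ := by
    intro t t' h
    have h' : d₀⁻¹ * t.1⁻¹ * d₀ * t.1 = d₀⁻¹ * t'.1⁻¹ * d₀ * t'.1 := congrArg Subtype.val h
    have hc : (t'.1 * t.1⁻¹) * d₀ = d₀ * (t'.1 * t.1⁻¹) := by
      calc (t'.1 * t.1⁻¹) * d₀ = t'.1 * d₀ * (d₀⁻¹ * t.1⁻¹ * d₀ * t.1) * t.1⁻¹ := by group
        _ = t'.1 * d₀ * (d₀⁻¹ * t'.1⁻¹ * d₀ * t'.1) * t.1⁻¹ := by rw [h']
        _ = d₀ * (t'.1 * t.1⁻¹) := by group
    have h1 := ec_no_commute T hnc hnn hC huH hd₀ hd₀1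
      (Subgroup.mul_mem _ t'.2 (Subgroup.inv_mem _ t.2)) hc
    apply Subtype.ext
    calc t.1 = (t'.1 * t.1⁻¹)⁻¹ * t'.1 := by group
      _ = t'.1 := by rw [h1, inv_one, one_mul]
  obtain ⟨t, ht⟩ := (Finite.injective_iff_surjective.mp hinj) ⟨t₀⁻¹, Subgroup.inv_mem _ ht₀⟩
  have hψ : d₀⁻¹ * t.1⁻¹ * d₀ * t.1 = t₀⁻¹ := congrArg Subtype.val ht
  have hconj : t.1⁻¹ * e * t.1 = d₀ := by
    calc t.1⁻¹ * e * t.1 = t.1⁻¹ * (d₀ * t₀) * t.1 := by rw [hfac]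
      _ = d₀ * (d₀⁻¹ * t.1⁻¹ * d₀ * t.1) * (t.1⁻¹ * (t₀ * t.1)) := by group
      _ = d₀ * t₀⁻¹ * (t.1⁻¹ * (t.1 * t₀)) := by rw [hψ, hab t₀ ht₀ t.1 t.2]
      _ = d₀ := by group
  have heq : e • q = q := by
    have := ((mem_ecD_iff T w e).mp he).2
    rwa [hw.2.2] at this
  have hfix : d₀ • (t.1⁻¹ • q) = t.1⁻¹ • q := by
    rw [← hconj, ← mul_smul]
    have e1 : t.1⁻¹ * e * t.1 * t.1⁻¹ = t.1⁻¹ * e := by group
    rw [e1, mul_smul, heq]
  rcases ec_fix_one T hnc hnn hC hu huH hd₀ hd₀1 hfix with h | h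
  · exfalso
    apply hq0
    have htH : t.1 ∈ ecH T := Subgroup.le_normalizer t.2
    calc q = t.1 • (t.1⁻¹ • q) := by rw [smul_inv_smul]
      _ = QuotientGroup.mk 1 := by rw [h]; exact (smul_mk_one_eq_iff _ _).mpr htH
  · refine ⟨t.1, t.2, ?_⟩
    rw [← h, smul_inv_smul]

/-- `D` is transitive on the points other than the two base points. -/
theorem ec_D_trans {u : G} (hu : u * u = 1) (huH : u ∉ ecH T) {p p' : G ⧸ ecH T}
    (hp0 : p ≠ QuotientGroup.mk 1) (hpy : p ≠ u • (QuotientGroup.mk 1 : G ⧸ ecH T))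
    (hp'0 : p' ≠ QuotientGroup.mk 1) (hp'y : p' ≠ u • (QuotientGroup.mk 1 : G ⧸ ecH T)) :
    ∃ d ∈ ecD T u, d • p = p' := by
  have huf := ec_uf T hnc hnn hC
  have hxy := ec_x_ne_y T huH
  obtain ⟨t, ht, rfl⟩ := ec_T_trans T hnc hnn hC hu huH hp0
  obtain ⟨t', ht', rfl⟩ := ec_T_trans T hnc hnn hC hu huH hp'0
  have ht1 : t ≠ 1 := by rintro rfl; exact hpy (one_smul _ _)
  have ht'1 : t' ≠ 1 := by rintro rfl; exact hp'y (one_smul _ _)
  have h1 := (ec_invFix_iff T hnc hnn hC t).mpr ⟨ht1, ht⟩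
  have h2 := (ec_invFix_iff T hnc hnn hC t').mpr ⟨ht'1, ht'⟩
  obtain ⟨s₀, hs₀⟩ := ec_invFix_nonempty T hnc hnn hC
  have hney : (invFix G (u • (QuotientGroup.mk 1 : G ⧸ ecH T))).Nonempty :=
    ⟨_, invFix_conj rfl hs₀⟩
  obtain ⟨d, hdx, hdy, hd⟩ := exists_conj_invFix huf hxy h1 h2 hney
  refine ⟨d, (mem_ecD_iff T u d).mpr ⟨hdx, hdy⟩, ?_⟩
  have : d * t = t' * d := by
    calc d * t = (d * t * d⁻¹) * d := by group
      _ = t' * d := by rw [hd]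
  rw [← mul_smul, this, mul_smul, hdy]

/-- There is an involution outside `H`. -/
theorem ec_exists_u : ∃ u : G, u * u = 1 ∧ u ∉ ecH T := by
  have hH := ec_se T (ec_ne_bot T hnc) hnn hC
  obtain ⟨s, hs, hs1, hss⟩ := exists_invol_of_two_group (T : Subgroup G) T.isPGroup' (ec_ne_bot T hnc)
  have hne : ecH T ≠ ⊤ := hH.1
  obtain ⟨g, hg⟩ : ∃ g : G, g ∉ ecH T := by
    by_contra hcon
    apply hne
    rw [eq_top_iff]
    intro g _
    by_contra hg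
    exact hcon ⟨g, hg⟩
  refine ⟨g * s * g⁻¹, ?_, ?_⟩
  · calc g * s * g⁻¹ * (g * s * g⁻¹) = g * (s * s) * g⁻¹ := by group
      _ = 1 := by rw [hss]; group
  · intro h
    apply hg
    have h' : (g⁻¹)⁻¹ * s * g⁻¹ ∈ ecH T := by rwa [inv_inv]
    exact inv_mem_iff.mp (se_mem hH (Subgroup.le_normalizer hs) hs1 hss h')

end

end Cfsg.Agent.Helper8
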