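import Mathlib
import Cfsg.Agent.Helper8.FStarMono
import Cfsg.Agent.Helper9.Bender
import Cfsg.Agent.Helper9.Layer2
import Cfsg.Agent.Helper9.Layer3

set_option autoImplicit false

namespace Cfsg.Agent.Helper8

open Subgroup
open Cfsg.Agent.Helper9

theorem msub_isPGroup_iff {G : Type*} [Group G] (p : ℕ) (H : Subgroup G) :
    IsPGroup p ↥H ↔ ∀ g ∈ H, ∃ k : ℕ, g ^ p ^ k = 1 := by
  constructor
  · intro h g hg
    obtain ⟨k, hk⟩ := h ⟨g, hg⟩
    exact ⟨k, by simpa using congrArg Subtype.val hk⟩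
  · intro h g
    obtain ⟨k, hk⟩ := h g.1 g.2
    exact ⟨k, Subtype.ext (by simpa using hk)⟩

section
variable {Y : Type*} [Group Y] [Finite Y]

theorem msub_layer_le (S : Subgroup Y) (hsn : S.IsSubnormal)
    (hC : Cfsg.generalizedFittingSubgroup Y ⊓ centralizer (S : Set Y) ≤ S) :
    Cfsg.layer Y ≤ S := by
  unfold Cfsg.layer
  apply sSup_le
  intro L hL
  rcases component_dichotomy L S hL hsn with h | h
  · exact h
  · exfalso
    rw [comm_eq_bot_iff] at h
    have hLS : L ≤ S := fun x hx => hC ⟨layer_le_genFitting (le_layer hL hx),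
      mem_centralizer_iff.mpr (fun s hs => (h x hx s hs).symm)⟩
    exact component_commutative_false hL (fun a ha b hb => h a ha b (hLS hb))

theorem msub_cent_mem (S : Subgroup Y) (hSF : S ≤ Cfsg.generalizedFittingSubgroup Y)
    (hsn : S.IsSubnormal)
    (hC : Cfsg.generalizedFittingSubgroup Y ⊓ centralizer (S : Set Y) ≤ S)
    (r : ℕ) [Fact r.Prime] (z : Y) (hz : z ∈ Cfsg.pCore r Y)
    (hzc : ∀ b ∈ S ⊓ Cfsg.pCore r Y, z * b = b * z) : z ∈ S := by
  have hzF : z ∈ Cfsg.fittingSubgroup Y := pCore_le_fitting r hz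
  have hE : Cfsg.layer Y ≤ S := msub_layer_le S hsn hC
  apply hC
  refine ⟨fitting_le_genFitting hzF, mem_centralizer_iff.mpr ?_⟩
  intro s hs
  have hcomm : ∀ a ∈ Cfsg.layer Y, ∀ b ∈ Cfsg.fittingSubgroup Y, a * b = b * a :=
    (comm_eq_bot_iff _ _).1 layer_comm_fitting
  obtain ⟨e, he, f, hf, rfl⟩ := mem_sup_of_commute hcomm (hSF hs)
  have hfS : f ∈ S := by
    have : f = e⁻¹ * (e * f) := by group
    rw [this]; exact S.mul_mem (S.inv_mem (hE he)) hs
  have hez : e * z = z * e := fitting_inf_layer_central hzF e he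
  have hcomm2 : ∀ a ∈ Cfsg.pCore r Y, ∀ b ∈ Cfsg.pPrimeCore r Y, a * b = b * a :=
    fun a ha b hb => (pPrimeCore_comm_pCore r b hb a ha).symm
  obtain ⟨a, ha, b, hb, rfl⟩ := mem_sup_of_commute hcomm2 (fitting_le_pCore_sup_pPrimeCore_b r hf)
  have hmcop : (Nat.card ↥(Cfsg.pPrimeCore r Y)).Coprime r := pPrimeCore_coprime r
  have hbm : b ^ (Nat.card ↥(Cfsg.pPrimeCore r Y)) = 1 := by
    have h2 := congrArg Subtype.val
      (pow_card_eq_one' (G := ↥(Cfsg.pPrimeCore r Y)) (x := ⟨b, hb⟩))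
    rw [SubmonoidClass.coe_pow] at h2
    exact h2
  have habm : (a * b) ^ (Nat.card ↥(Cfsg.pPrimeCore r Y)) = a ^ (Nat.card ↥(Cfsg.pPrimeCore r Y)) := by
    rw [(show Commute a b from hcomm2 a ha b hb).mul_pow, hbm, mul_one]
  have haord : (Nat.card ↥(Cfsg.pPrimeCore r Y)).Coprime (orderOf a) := by
    obtain ⟨k, hk⟩ := (msub_isPGroup_iff r _).1 (pCore_isPGroup r (G := Y)) a ha
    exact Nat.Coprime.coprime_dvd_right (orderOf_dvd_of_pow_eq_one hk)
      (Nat.Coprime.pow_right k hmcop)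
  obtain ⟨j, hj⟩ := exists_pow_eq_self_of_coprime haord
  have haS : a ∈ S := by
    rw [← hj, ← habm]
    exact S.pow_mem (S.pow_mem hfS _) j
  have h1 : z * a = a * z := hzc a ⟨haS, ha⟩
  have h2 : z * b = b * z := (pPrimeCore_comm_pCore r b hb z hz).symm
  calc e * (a * b) * z = e * (a * (b * z)) := by group
    _ = e * (a * (z * b)) := by rw [h2]
    _ = e * ((a * z) * b) := by group
    _ = e * ((z * a) * b) := by rw [h1]
    _ = (e * z) * (a * b) := by group
    _ = (z * e) * (a * b) := by rw [hez]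
    _ = z * (e * (a * b)) := by group

theorem msub_AxB (S : Subgroup Y) (hSF : S ≤ Cfsg.generalizedFittingSubgroup Y)
    (hsn : S.IsSubnormal)
    (hC : Cfsg.generalizedFittingSubgroup Y ⊓ centralizer (S : Set Y) ≤ S)
    (r : ℕ) [Fact r.Prime] (y : Y) (hy : (orderOf y).Coprime r)
    (hyc : ∀ b ∈ S ⊓ Cfsg.pCore r Y, y * b = b * y) : ∀ x ∈ Cfsg.pCore r Y, y * x = x * y := by
  have hn : (Cfsg.pCore r Y).Normal := Cfsg.pCore_normal r Y
  refine thompson_AxB_elt r y hy (S ⊓ Cfsg.pCore r Y) (Cfsg.pCore r Y)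
    ((pCore_isPGroup r).to_le inf_le_right) (pCore_isPGroup r) hyc ?_ ?_ ?_
  · rw [normalizer_eq_top_iff.mpr hn]; exact le_top
  · rw [normalizer_eq_top_iff.mpr hn]; exact mem_top _
  · intro x hx
    apply hyc
    refine ⟨?_, hx.1⟩
    apply msub_cent_mem S hSF hsn hC r x hx.1
    intro b hb
    exact ((mem_centralizer_iff.mp hx.2) b hb).symm

theorem msub_pCore_comm (r p : ℕ) [Fact r.Prime] [Fact p.Prime] (hne : r ≠ p) :
    ∀ u ∈ Cfsg.pCore r Y, ∀ v ∈ Cfsg.pCore p Y, u * v = v * u := by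
  intro u hu v hv
  have hcop : (Nat.card ↥(Cfsg.pCore r Y)).Coprime p := by
    obtain ⟨n, hn⟩ := (IsPGroup.iff_card.mp (pCore_isPGroup r (G := Y)))
    rw [hn]
    exact Nat.Coprime.pow_left n ((Nat.coprime_primes Fact.out Fact.out).mpr hne)
  exact pPrimeCore_comm_pCore p u (le_pPrimeCore (Cfsg.pCore_normal r Y) hcop hu) v hv

theorem msub_inf_layer_le_fitting (q : ℕ) [Fact q.Prime] (X : Subgroup Y) (hX : IsPGroup q ↥X)
    (hn : Cfsg.layer Y ≤ normalizer (X : Set Y)) : X ⊓ Cfsg.layer Y ≤ Cfsg.fittingSubgroup Y := by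
  apply subnormal_nilpotent_le_fitting
  · refine IsSubnormal.trans inf_le_right ?_ (layer_normal.isSubnormal)
    apply Normal.isSubnormal
    apply Subgroup.normal_subgroupOf_of_le_normalizer
    exact (le_inf hn Subgroup.le_normalizer).trans Subgroup.inf_normalizer_le_normalizer_inf
  · exact IsPGroup.isNilpotent (hX.to_le inf_le_left)

theorem msub_pCore_ne_bot (p : ℕ) [Fact p.Prime] (h : p ∣ Nat.card ↥(Cfsg.fittingSubgroup Y)) :
    Cfsg.pCore p Y ≠ ⊥ := by
  intro hbot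
  obtain ⟨Q⟩ : Nonempty (Sylow p ↥(Cfsg.fittingSubgroup Y)) := inferInstance
  have h1 := normal_sylow_map_le_pCore (Cfsg.fittingSubgroup Y) fitting_nilpotent p Q
  rw [hbot, le_bot_iff] at h1
  have h2 : (Q : Subgroup ↥(Cfsg.fittingSubgroup Y)) = ⊥ :=
    (Subgroup.map_eq_bot_iff_of_injective _ (Subgroup.subtype_injective _)).mp h1
  exact Q.ne_bot_of_dvd_card h h2

theorem msub_partA (S : Subgroup Y) (hSF : S ≤ Cfsg.generalizedFittingSubgroup Y)
    (hsn : S.IsSubnormal)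
    (hC : Cfsg.generalizedFittingSubgroup Y ⊓ centralizer (S : Set Y) ≤ S)
    (q : ℕ) [Fact q.Prime] (hq : ¬ q ∣ Nat.card ↥(Cfsg.fittingSubgroup Y))
    (X : Subgroup Y) (hX : IsPGroup q ↥X) (hSX : S ≤ normalizer (X : Set Y)) : X = ⊥ := by
  have hqp : q.Prime := Fact.out
  have hcopF : (Nat.card ↥(Cfsg.fittingSubgroup Y)).Coprime q :=
    ((Nat.Prime.coprime_iff_not_dvd hqp).mpr hq).symm
  have hFq : ∀ x : Y, x ∈ Cfsg.fittingSubgroup Y → ∀ k : ℕ, x ^ q ^ k = 1 → x = 1 := by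
    intro x hxF k hk
    have h2 : x ^ Nat.card ↥(Cfsg.fittingSubgroup Y) = 1 := by
      have h2 := congrArg Subtype.val
        (pow_card_eq_one' (G := ↥(Cfsg.fittingSubgroup Y)) (x := ⟨x, hxF⟩))
      rw [SubmonoidClass.coe_pow] at h2
      exact h2
    exact eq_one_of_pow_coprime_b x _ _ (Nat.Coprime.pow_left k hcopF.symm) hk h2
  have hXF : ∀ x ∈ X, x ∈ Cfsg.fittingSubgroup Y → x = 1 := by
    intro x hx hxF
    obtain ⟨k, hk⟩ := (msub_isPGroup_iff q X).1 hX x hx
    exact hFq x hxF k hk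
  have hE : Cfsg.layer Y ≤ S := msub_layer_le S hsn hC
  have hFn : (Cfsg.fittingSubgroup Y).Normal := inferInstance
  have hEn : (Cfsg.layer Y).Normal := layer_normal
  have h1 : ∀ x ∈ X, ∀ s ∈ S, s ∈ Cfsg.fittingSubgroup Y → x * s = s * x := by
    intro x hx s hs hsF
    have hc : x * s * x⁻¹ * s⁻¹ = 1 := by
      apply hXF
      · have : s * x⁻¹ * s⁻¹ ∈ X := (mem_normalizer_iff.mp (hSX hs) x⁻¹).mp (X.inv_mem hx)
        have h' : x * s * x⁻¹ * s⁻¹ = x * (s * x⁻¹ * s⁻¹) := by group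
        rw [h']; exact X.mul_mem hx this
      · exact (Cfsg.fittingSubgroup Y).mul_mem (hFn.conj_mem s hsF x)
          ((Cfsg.fittingSubgroup Y).inv_mem hsF)
    calc x * s = (x * s * x⁻¹ * s⁻¹) * (s * x) := by group
      _ = s * x := by rw [hc, one_mul]
  have h2 : ∀ x ∈ X, ∀ e ∈ Cfsg.layer Y, x * e = e * x := by
    intro x hx e he
    have hc : x * e * x⁻¹ * e⁻¹ = 1 := by
      have hmem : x * e * x⁻¹ * e⁻¹ ∈ X ⊓ Cfsg.layer Y := by
        refine ⟨?_, ?_⟩
        · have : e * x⁻¹ * e⁻¹ ∈ X :=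
            (mem_normalizer_iff.mp (hSX (hE he)) x⁻¹).mp (X.inv_mem hx)
          have h' : x * e * x⁻¹ * e⁻¹ = x * (e * x⁻¹ * e⁻¹) := by group
          rw [h']; exact X.mul_mem hx this
        · exact (Cfsg.layer Y).mul_mem (hEn.conj_mem e he x) ((Cfsg.layer Y).inv_mem he)
      exact hXF _ hmem.1 (msub_inf_layer_le_fitting q X hX (hE.trans hSX) hmem)
    calc x * e = (x * e * x⁻¹ * e⁻¹) * (e * x) := by group
      _ = e * x := by rw [hc, one_mul]
  have h3 : ∀ x ∈ X, ∀ r : ℕ, r.Prime → ∀ w ∈ Cfsg.pCore r Y, x * w = w * x := by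
    intro x hx r hr w hw
    have : Fact r.Prime := ⟨hr⟩
    by_cases hrq : r = q
    · subst hrq
      have hw1 : w = 1 := by
        obtain ⟨k, hk⟩ := (msub_isPGroup_iff r _).1 (pCore_isPGroup r (G := Y)) w hw
        exact hFq w (pCore_le_fitting r hw) k hk
      rw [hw1, mul_one, one_mul]
    · have hord : (orderOf x).Coprime r := by
        obtain ⟨k, hk⟩ := (msub_isPGroup_iff q X).1 hX x hx
        exact Nat.Coprime.coprime_dvd_left (orderOf_dvd_of_pow_eq_one hk)
          (Nat.Coprime.pow_left k ((Nat.coprime_primes hqp hr).mpr (Ne.symm hrq)))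
      exact msub_AxB S hSF hsn hC r x hord
        (fun b hb => h1 x hx b hb.1 (pCore_le_fitting r hb.2)) w hw
  have h4 : X ≤ centralizer (Cfsg.generalizedFittingSubgroup Y : Set Y) := by
    intro x hx
    rw [mem_centralizer_iff]
    have hle : Cfsg.generalizedFittingSubgroup Y ≤ centralizer ({x} : Set Y) := by
      unfold Cfsg.generalizedFittingSubgroup
      apply sup_le
      · intro e he
        rw [mem_centralizer_iff]
        intro h hh; rw [Set.mem_singleton_iff.mp hh]; exact h2 x hx e he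
      · rw [fitting_eq_iSup_pCore]
        apply iSup_le
        intro r w hw
        rw [mem_centralizer_iff]
        intro h hh; rw [Set.mem_singleton_iff.mp hh]; exact h3 x hx r r.2 w hw
    intro g hg
    exact (mem_centralizer_iff.mp (hle hg) x (Set.mem_singleton x)).symm
  rw [eq_bot_iff]
  intro x hx
  rw [mem_bot]
  exact hXF x hx (cent_genFitting_le_fitting (h4 hx))

end

theorem msub_coatom_mem {G : Type*} [Group G] [Finite G] [IsSimpleGroup G]
    (A : Subgroup G) (hA : IsCoatom A) (r : ℕ) [Fact r.Prime] (hne : Cfsg.pCore r ↥A ≠ ⊥) (g : G)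
    (hg : ∀ z : ↥A, z ∈ Cfsg.pCore r ↥A → (∀ w ∈ Cfsg.pCore r ↥A, z * w = w * z) →
      g * (z : G) = (z : G) * g) : g ∈ A := by
  classical
  have hPrA : (Cfsg.pCore r ↥A).map A.subtype ≤ A := by
    rintro _ ⟨y, -, rfl⟩; exact y.2
  have hAPr : A ≤ normalizer (((Cfsg.pCore r ↥A).map A.subtype : Subgroup G) : Set G) :=
    le_normalizer.trans (char_map_normalizer A (Cfsg.pCore r ↥A))
  set Z : Subgroup G := (Cfsg.pCore r ↥A).map A.subtype ⊓
    centralizer (((Cfsg.pCore r ↥A).map A.subtype : Subgroup G) : Set G) with hZ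
  have hAZ : A ≤ normalizer (Z : Set G) :=
    (le_inf hAPr (hAPr.trans (normalizer_le_normalizer_centralizer _))).trans
      inf_normalizer_le_normalizer_inf
  have hZne : Z ≠ ⊥ := by
    have : Nontrivial ↥(Cfsg.pCore r ↥A) := (Subgroup.nontrivial_iff_ne_bot _).mpr hne
    have := IsPGroup.center_nontrivial (pCore_isPGroup r (G := ↥A))
    obtain ⟨c, hc⟩ := exists_ne (1 : center ↥(Cfsg.pCore r ↥A))
    intro hbot
    have hcz : (((c : ↥(Cfsg.pCore r ↥A)) : ↥A) : G) ∈ Z := by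
      refine ⟨Subgroup.mem_map_of_mem _ (c : ↥(Cfsg.pCore r ↥A)).2, mem_centralizer_iff.mpr ?_⟩
      rintro _ ⟨h', hh', rfl⟩
      have := Subgroup.mem_center_iff.mp c.2 ⟨h', hh'⟩
      have h2 := congrArg (fun t : ↥(Cfsg.pCore r ↥A) => ((t : ↥A) : G)) this
      simpa using h2
    rw [hbot, mem_bot] at hcz
    apply hc
    apply Subtype.ext; apply Subtype.ext; apply Subtype.ext
    simpa using hcz
  have hZA : Z ≤ A := inf_le_left.trans hPrA
  have hN : normalizer (Z : Set G) = A := by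
    rcases hA.le_iff.mp hAZ with h | h
    · exfalso
      have hZn : Z.Normal := normalizer_eq_top_iff.mp h
      rcases hZn.eq_bot_or_eq_top with h' | h'
      · exact hZne h'
      · exact hA.1 (top_le_iff.mp (h' ▸ hZA))
    · exact h
  rw [← hN]
  apply centralizer_le_normalizer
  rw [mem_centralizer_iff]
  rintro z ⟨⟨z', hz', rfl⟩, hzc⟩
  refine (hg z' hz' ?_).symm
  intro w hw
  have := (mem_centralizer_iff.mp hzc) (w : G) (Subgroup.mem_map_of_mem _ hw)
  exact Subtype.ext this.symm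

end Cfsg.Agent.Helper8
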